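import Cfsg.Agent.H620.Reduce
import Cfsg.Agent.H620.Solv

/-!
# S4556 and S4557 from the rows (helper620)
-/

set_option autoImplicit false

namespace Cfsg.Agent.H620

open Cfsg Cfsg.Agent.H713

universe u

/-- S4556 from the rows. -/
theorem compl_of_row56
    (hrow : ∀ (S : Type u) [Group S] [Finite S] [IsSimpleGroup S], (∃ a b : S, a * b ≠ b * a) →
      Row56 S)
    {G : Type u} [Group G] [Finite G] (p : ℕ) [hp : Fact p.Prime]
    (h : ∀ g : G, (∃ χ : IrrCharacter G, (χ : G → ℂ) g = 0) → p ∣ orderOf g) :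
    ∃ (P : Sylow p G) (N : Subgroup G),
      N.Normal ∧ Group.IsNilpotent N ∧ N.IsComplement' (P : Subgroup G) := by
  have hs : Group.IsSolvable G := solvable_of_row56 hrow p hp.out h
  let P : Sylow p G := default
  refine ⟨P, Solv.exists_compl p ?_ P⟩
  intro r hr hrp R
  refine Solv.normal_sylow (Nat.card G) G rfl ?_ R
  rintro g ⟨m, hm⟩ hv
  have h1 := h g hv
  rw [hm] at h1
  have h2 := hp.out.dvd_of_dvd_pow h1
  exact hrp ((Nat.prime_dvd_prime_iff_eq hp.out hr.out).1 h2).symm

end Cfsg.Agent.H620
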