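import Cfsg.Agent.H620.ExcIndex
import Cfsg.Agent.H620.RootLie
import Cfsg.Agent.H620.ChevCnt

/-!
# Tables of long roots as vectors (helper620)
-/

set_option autoImplicit false
set_option linter.unusedSectionVars false

namespace Cfsg.Agent.H620.TwTbl

open CoxeterSystem Cfsg.Agent.ChevalleyStructure.CoxeterGeom Cfsg.Agent.Tits.Roots Cfsg.Agent.Tits.Core
  Cfsg.Agent.Nodes.Reps Cfsg.Agent.Nodes.BNOf Cfsg.Agent.Nodes.Coroot
open Cfsg Cfsg.Agent.H620.ExcIndex Cfsg.Agent.H620.ChevCnt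

variable {I W : Type*} [Fintype I] [DecidableEq I] [Group W] {M : CoxeterMatrix I}
  {cs : CoxeterSystem M W} {A : I → I → ℤ} {h : IsCartan M A}

theorem cpr_sign [Finite W] {s : I → ℤ} (hs : IsRoot cs h s) (i : I) :
    (cpr cs h (sr i) s < 0 ↔ pairing A i s < 0) ∧ (0 < cpr cs h (sr i) s ↔ 0 < pairing A i s) := by
  have := Fintype.ofFinite W
  have e : cpr cs h s (sr i) = pairing A i s := cpr_sr cs h s i
  have h1 : ∀ {x y : I → ℤ}, IsRoot cs h x → IsRoot cs h y → (0 < cpr cs h x y ↔ 0 < cpr cs h y x) := by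
    intro x y hx hy
    rw [cpr_pos_iff cs h x hy, cpr_pos_iff cs h y hx, form_comm]
  constructor
  · have h2 := h1 (isRoot_sr cs h i).neg hs
    rw [cpr_neg cs h _ hs, cpr_neg_right cs h _ (isRoot_sr cs h i), e,
      Left.neg_pos_iff, Left.neg_pos_iff] at h2
    exact h2
  · rw [h1 (isRoot_sr cs h i) hs, e]

/-- The check. -/
def TblV (A : I → I → ℤ) (a : I → ℤ) (L : List (I → ℤ)) (wt : I → ℕ) (K : (I → ℤ) → ℕ) : Prop :=
  (a ∈ L ∧ K a = 0) ∧ ∀ s ∈ L,
    (∀ i, s - pairing A i s • sr i ∈ L ∧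
      K (s - pairing A i s • sr i) + (if pairing A i s < 0 then wt i else 0) =
        K s + (if 0 < pairing A i s then wt i else 0)) ∧
    (s = a ∨ ∃ i, K (s - pairing A i s • sr i) < K s)

instance (A : I → I → ℤ) (a : I → ℤ) (L : List (I → ℤ)) (wt : I → ℕ) (K : (I → ℤ) → ℕ) :
    Decidable (TblV A a L wt K) := by
  unfold TblV
  infer_instance

theorem tbl_of [Finite W] {a : I → ℤ} {L : List (I → ℤ)} {wt : I → ℕ} {K : (I → ℤ) → ℕ} (D : TblV A a L wt K)
    (hr : ∀ s ∈ L, IsRoot cs h s) : Tbl cs h a L.toFinset wt K := by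
  obtain ⟨⟨h1, h2⟩, h3⟩ := D
  refine ⟨List.mem_toFinset.2 h1, ?_, h2, ?_, ?_⟩
  · intro s hs i
    rw [List.mem_toFinset] at hs ⊢
    rw [rep_simple_eq]
    exact ((h3 s hs).1 i).1
  · intro s hs
    rw [List.mem_toFinset] at hs
    rcases (h3 s hs).2 with h4 | ⟨i, h4⟩
    · exact Or.inl h4
    · refine Or.inr ⟨i, ?_⟩
      rwa [rep_simple_eq]
  · intro s hs i
    rw [List.mem_toFinset] at hs
    rw [rep_simple_eq]
    have h4 := cpr_sign (hr s hs) i
    simp only [h4.1, h4.2]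
    exact ((h3 s hs).1 i).2

theorem sum_list {L : List (I → ℤ)} (hL : L.Nodup) (K : (I → ℤ) → ℕ) (q : ℕ) :
    ∑ s ∈ L.toFinset, q ^ K s = ev (cntL (L.map K)) q := by
  rw [ev_cntL, List.map_map, List.sum_toFinset _ hL]
  rfl

end Cfsg.Agent.H620.TwTbl
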